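import Mathlib

/-!
# Doubly transitive groups of degree `p ^ 2 + 1`, II

Three doubly transitive actions of prime degree permuted by a shift: the first and the third are
equivalent.
-/

set_option autoImplicit false
set_option linter.unusedSectionVars false

namespace H24.Sq

open Matrix

variable {Γ ι : Type*} [Fintype ι] [DecidableEq ι]

/-- The all-one matrix. -/
def JJ (ι : Type*) : Matrix ι ι ℤ := fun _ _ => 1

/-- Invariance of a matrix under a pair of families of permutations. -/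
def Inv (ρ σ : Γ → Equiv.Perm ι) (N : Matrix ι ι ℤ) : Prop := ∀ g u v, N (ρ g u) (σ g v) = N u v

/-- A doubly transitive family of permutations. -/
def Tr2 (ρ : Γ → Equiv.Perm ι) : Prop :=
  ∀ u v u' v', u ≠ v → u' ≠ v' → ∃ g, ρ g u = u' ∧ ρ g v = v'

theorem smJ (k : ℤ) (u v : ι) : (k • JJ ι) u v = k := by
  simp only [Matrix.smul_apply, JJ, smul_eq_mul, mul_one]

theorem ent (n l : ℤ) (u v : ι) :
    (n • (1 : Matrix ι ι ℤ) + l • JJ ι) u v = (if u = v then n else 0) + l := by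
  rw [Matrix.add_apply, smJ, Matrix.smul_apply, Matrix.one_apply]
  split_ifs <;> simp

theorem Inv.mul {ρ σ τ : Γ → Equiv.Perm ι} {N M : Matrix ι ι ℤ} (hN : Inv ρ σ N) (hM : Inv σ τ M) :
    Inv ρ τ (N * M) := by
  intro g u w
  simp only [Matrix.mul_apply]
  rw [← Equiv.sum_comp (σ g)]
  exact Finset.sum_congr rfl (fun v _ => by rw [hN, hM])

theorem Inv.tr {ρ σ : Γ → Equiv.Perm ι} {N : Matrix ι ι ℤ} (hN : Inv ρ σ N) : Inv σ ρ Nᵀ :=
  fun g u v => hN g v u

theorem Tr2.tr1 [Nontrivial ι] {ρ : Γ → Equiv.Perm ι} (h : Tr2 ρ) (u v : ι) : ∃ g, ρ g u = v := by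
  obtain ⟨u', hu⟩ := exists_ne u
  obtain ⟨v', hv⟩ := exists_ne v
  obtain ⟨g, hg, -⟩ := h u u' v v' hu.symm hv.symm
  exact ⟨g, hg⟩

theorem Inv.two [Nontrivial ι] {ρ : Γ → Equiv.Perm ι} (h : Tr2 ρ) {N : Matrix ι ι ℤ}
    (hN : Inv ρ ρ N) : ∃ n l : ℤ, N = n • (1 : Matrix ι ι ℤ) + l • JJ ι := by
  obtain ⟨u0, v0, h0⟩ := exists_pair_ne ι
  refine ⟨N u0 u0 - N u0 v0, N u0 v0, ?_⟩
  ext u v
  by_cases e : u = v
  · subst e
    obtain ⟨g, rfl⟩ := h.tr1 u0 u
    rw [ent, if_pos rfl, hN]; ring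
  · obtain ⟨g, rfl, rfl⟩ := h u0 v0 u v h0 e
    rw [ent, if_neg e, hN]; ring

theorem Inv.row [Nontrivial ι] {ρ σ : Γ → Equiv.Perm ι} (h : Tr2 ρ) {N : Matrix ι ι ℤ}
    (hN : Inv ρ σ N) (u0 : ι) : N * JJ ι = (∑ v, N u0 v) • JJ ι := by
  ext u w
  obtain ⟨g, rfl⟩ := h.tr1 u0 u
  simp only [Matrix.mul_apply, JJ, mul_one, Matrix.smul_apply, smul_eq_mul]
  rw [← Equiv.sum_comp (σ g)]
  exact Finset.sum_congr rfl (fun v _ => hN g u0 v)

theorem JJ_mul_JJ : JJ ι * JJ ι = (Fintype.card ι : ℤ) • JJ ι := by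
  ext u w
  rw [smJ]
  simp [Matrix.mul_apply, JJ]

theorem JJ_tr : (JJ ι)ᵀ = JJ ι := rfl

theorem indep [Nontrivial ι] {n l n' l' : ℤ}
    (h : n • (1 : Matrix ι ι ℤ) + l • JJ ι = n' • (1 : Matrix ι ι ℤ) + l' • JJ ι) :
    n = n' ∧ l = l' := by
  obtain ⟨u0, v0, h0⟩ := exists_pair_ne ι
  have h1 := congrFun (congrFun h u0) u0
  have h2 := congrFun (congrFun h u0) v0
  rw [ent, ent, if_pos rfl, if_pos rfl] at h1
  rw [ent, ent, if_neg h0, if_neg h0] at h2
  exact ⟨by omega, by omega⟩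

open Classical in
/-- The incidence matrix of a relation. -/
noncomputable def inc (A : ι → ι → Prop) : Matrix ι ι ℤ := fun u v => if A u v then 1 else 0

theorem inc_inv {ρ σ : Γ → Equiv.Perm ι} {A : ι → ι → Prop}
    (h : ∀ g u v, A (ρ g u) (σ g v) ↔ A u v) : Inv ρ σ (inc A) := by
  intro g u v
  unfold inc
  by_cases e : A u v
  · rw [if_pos e, if_pos ((h g u v).2 e)]
  · rw [if_neg e, if_neg (fun e' => e ((h g u v).1 e'))]

open Classical in
theorem sym_design [Nontrivial ι] {ρ σ : Γ → Equiv.Perm ι} (hρ : Tr2 ρ) (hσ : Tr2 σ)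
    {A : ι → ι → Prop} (h : ∀ g u v, A (ρ g u) (σ g v) ↔ A u v) {u0 v0 v1 : ι} (h0 : A u0 v0)
    (h1 : ¬ A u0 v1) : ∃ k n l : ℤ, 0 < k ∧ k < Fintype.card ι ∧
      k = (Finset.univ.filter (A u0)).card ∧ inc A * JJ ι = k • JJ ι ∧
      JJ ι * inc A = k • JJ ι ∧ inc A * (inc A)ᵀ = n • (1 : Matrix ι ι ℤ) + l • JJ ι ∧
      n + l = k ∧ k ^ 2 = n + l * Fintype.card ι ∧ n ≠ 0 := by
  have hi := inc_inv h
  obtain ⟨n, l, hnl⟩ := (hi.mul hi.tr).two hρ
  set k : ℤ := ∑ v, inc A u0 v with hk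
  have hkc : k = (Finset.univ.filter (A u0)).card := by
    rw [hk]; simp [inc]
  have hrow : inc A * JJ ι = k • JJ ι := hi.row hρ u0
  have hcol0 := hi.tr.row hσ v0
  set k' : ℤ := ∑ v, (inc A)ᵀ v0 v
  have hcol1 : JJ ι * inc A = k' • JJ ι := by
    have := congrArg Matrix.transpose hcol0
    rwa [Matrix.transpose_mul, Matrix.transpose_transpose, Matrix.transpose_smul, JJ_tr] at this
  have hc : (0 : ℤ) < Fintype.card ι := by exact_mod_cast Fintype.card_pos
  have hkk : k' = k := by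
    have e : JJ ι * (inc A * JJ ι) = (JJ ι * inc A) * JJ ι := (Matrix.mul_assoc _ _ _).symm
    rw [hrow, hcol1, Matrix.mul_smul, Matrix.smul_mul, JJ_mul_JJ, smul_smul, smul_smul] at e
    have := congrFun (congrFun e u0) u0
    rw [smJ, smJ] at this
    exact (mul_right_cancel₀ hc.ne' this).symm
  rw [hkk] at hcol0 hcol1
  have hpos : 0 < k := by
    rw [hkc]
    exact_mod_cast Finset.card_pos.2 ⟨v0, by simpa using h0⟩
  have hlt : k < Fintype.card ι := by
    rw [hkc]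
    have : (Finset.univ.filter (A u0)).card < (Finset.univ : Finset ι).card :=
      Finset.card_lt_card (Finset.filter_ssubset.2 ⟨v1, Finset.mem_univ _, h1⟩)
    exact_mod_cast this
  have hd : n + l = k := by
    have := congrFun (congrFun hnl u0) u0
    simp only [Matrix.mul_apply, Matrix.transpose_apply, Matrix.add_apply, Matrix.smul_apply,
      Matrix.one_apply_eq, JJ, smul_eq_mul, mul_one] at this
    rw [← this, hk]
    exact Finset.sum_congr rfl (fun v _ => by simp only [inc]; split_ifs <;> simp)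
  have hsq : k ^ 2 = n + l * Fintype.card ι := by
    have e : inc A * (inc A)ᵀ * JJ ι = inc A * ((inc A)ᵀ * JJ ι) := Matrix.mul_assoc _ _ _
    rw [hnl, hcol0, Matrix.mul_smul, hrow, Matrix.add_mul, Matrix.smul_mul, Matrix.smul_mul,
      Matrix.one_mul, JJ_mul_JJ, smul_smul, smul_smul, ← add_smul] at e
    have := congrFun (congrFun e u0) u0
    rw [smJ, smJ] at this
    linarith
  refine ⟨k, n, l, hpos, hlt, hkc, hrow, hcol1, hnl, hd, hsq, fun hn => ?_⟩
  rw [hn, zero_add] at hd hsq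
  rw [hd] at hsq
  nlinarith

theorem num_end {p : ℕ} (hp : p.Prime) {k n l s : ℤ} (h0 : 0 < k) (h1 : k < p) (hd : n + l = k)
    (hsq : k ^ 2 = n + l * p) (hs : n = s ^ 2) : k = 1 ∨ k = p - 1 := by
  wlog hs0 : 0 ≤ s generalizing s
  · exact this (s := -s) (by rw [hs]; ring) (by omega)
  have hp2 : (2 : ℤ) ≤ p := by exact_mod_cast hp.two_le
  have hl : 0 ≤ l := by
    by_contra hl
    have : l * (p - 1) < 0 := mul_neg_of_neg_of_pos (by omega) (by omega)
    nlinarith
  have hsk : s ≤ k := by nlinarith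
  have hdvd : (p : ℤ) ∣ (k - s) * (k + s) := ⟨l, by rw [hs] at hsq; linarith⟩
  rcases (Nat.prime_iff_prime_int.1 hp).dvd_or_dvd hdvd with h | h
  · have : k - s = 0 := by
      by_contra hne
      have := Int.le_of_dvd (by omega) h
      omega
    left
    have hks : s = k := by omega
    subst hks
    nlinarith
  · obtain ⟨m, hm⟩ := h
    have hm1 : m = 1 := by
      have : 0 < m := by
        by_contra hm0
        have : (p : ℤ) * m ≤ 0 := mul_nonpos_of_nonneg_of_nonpos (by omega) (by omega)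
        omega
      have : m < 2 := by
        by_contra hm2
        have : (p : ℤ) * 2 ≤ p * m := mul_le_mul_of_nonneg_left (by omega) (by omega)
        omega
      omega
    rw [hm1, mul_one] at hm
    have hl' : l = k - s := by
      have : (p : ℤ) * l = p * (k - s) := by rw [← hm]; rw [hs, ← hm] at hsq; linarith
      exact mul_left_cancel₀ (by omega) this
    have : s * (s - 1) = 0 := by nlinarith
    rcases mul_eq_zero.1 this with h | h
    · omega
    · right; omega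

open Classical in
theorem shift_equiv {p : ℕ} (hp : p.Prime) (hι : Fintype.card ι = p) {ρ σ τ : Γ → Equiv.Perm ι}
    (hρ : Tr2 ρ) (hσ : Tr2 σ) (hτ : Tr2 τ) {A C : ι → ι → Prop}
    (hA : ∀ g u v, A (ρ g u) (σ g v) ↔ A u v) (hA' : ∀ g u v, A (σ g u) (τ g v) ↔ A u v)
    (hC : ∀ g u v, C (ρ g u) (τ g v) ↔ C u v) {u0 v0 v1 w0 w1 : ι} (h0 : A u0 v0) (h1 : ¬ A u0 v1)
    (h0' : C u0 w0) (h1' : ¬ C u0 w1) :
    (∀ w, C u0 w → w = w0) ∨ (∀ w, ¬ C u0 w → w = w1) := by
  haveI : Nontrivial ι := Fintype.one_lt_card_iff_nontrivial.1 (hι ▸ hp.one_lt)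
  obtain ⟨k, n, l, -, -, -, hAr, hAc, hAA, -, -, hn⟩ := sym_design hρ hσ hA h0 h1
  obtain ⟨k', n', l', hk0, hk1, hkc, hCr, hCc, hCC, hd, hsq, -⟩ := sym_design hρ hτ hC h0' h1'
  obtain ⟨u1, hu1⟩ : ∃ u1, ¬ C u1 w0 := by
    obtain ⟨g, hg⟩ := hτ.tr1 w1 w0
    exact ⟨ρ g u0, by rw [← hg, hC]; exact h1'⟩
  obtain ⟨k'', n'', l'', -, -, -, -, -, hCC', -, -, hn''⟩ :=
    sym_design (A := fun w u => C u w) hτ hρ (fun g u v => hC g v u) h0' hu1
  have htr : inc (fun w u => C u w) = (inc C)ᵀ := rfl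
  rw [htr, Matrix.transpose_transpose] at hCC'
  set N := inc A * inc A with hN
  have hNi : Inv ρ τ N := (inc_inv hA).mul (inc_inv hA')
  obtain ⟨α0, β0, hNC⟩ := (hNi.mul (inc_inv hC).tr).two hρ
  have hNJ : N * JJ ι = (k * k) • JJ ι := by
    rw [hN, Matrix.mul_assoc, hAr, Matrix.mul_smul, hAr, smul_smul]
  have e1 : n'' • N = α0 • inc C + (β0 * k' - l'' * (k * k)) • JJ ι := by
    have e : N * (inc C)ᵀ * inc C = N * ((inc C)ᵀ * inc C) := Matrix.mul_assoc _ _ _
    rw [hNC, hCC', Matrix.add_mul, Matrix.smul_mul, Matrix.smul_mul, Matrix.one_mul, hCc,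
      Matrix.mul_add, Matrix.mul_smul, Matrix.mul_smul, Matrix.mul_one, hNJ, smul_smul,
      smul_smul] at e
    rw [sub_smul, ← add_sub_assoc, e, add_sub_cancel_right]
  set α := N u0 w0 - N u0 w1 with hα
  set β := N u0 w1 with hβ
  have e2 := congrFun (congrFun e1 u0) w0
  have e3 := congrFun (congrFun e1 u0) w1
  simp only [Matrix.smul_apply, Matrix.add_apply, JJ, inc, if_pos h0', if_neg h1', smul_eq_mul,
    mul_one, mul_zero, zero_add] at e2 e3
  have e4 : N = α • inc C + β • JJ ι := by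
    ext u w
    have e5 := congrFun (congrFun e1 u) w
    simp only [Matrix.smul_apply, Matrix.add_apply, JJ, smul_eq_mul, mul_one] at e5 ⊢
    apply mul_left_cancel₀ hn''
    rw [e5, ← e3]
    have : α0 = n'' * α := by rw [hα, mul_sub, e2, e3]; ring
    rw [this]; ring
  have hJA : JJ ι * (inc A)ᵀ = k • JJ ι := by
    have := congrArg Matrix.transpose hAr
    rwa [Matrix.transpose_mul, Matrix.transpose_smul, JJ_tr] at this
  have hJC : JJ ι * (inc C)ᵀ = k' • JJ ι := by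
    have := congrArg Matrix.transpose hCr
    rwa [Matrix.transpose_mul, Matrix.transpose_smul, JJ_tr] at this
  have e6 : N * Nᵀ = (n * n) • (1 : Matrix ι ι ℤ) + (n * l + l * k * k) • JJ ι := by
    have : N * Nᵀ = inc A * (inc A * (inc A)ᵀ) * (inc A)ᵀ := by
      rw [hN, Matrix.transpose_mul]; simp only [Matrix.mul_assoc]
    rw [this, hAA, Matrix.mul_add, Matrix.mul_smul, Matrix.mul_smul, Matrix.mul_one, hAr,
      Matrix.add_mul, Matrix.smul_mul, Matrix.smul_mul, Matrix.smul_mul, hJA, hAA]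
    module
  have e7 : N * Nᵀ = (α * α * n') • (1 : Matrix ι ι ℤ) +
      (α * α * l' + 2 * α * β * k' + β * β * Fintype.card ι) • JJ ι := by
    conv_lhs => rw [e4]
    rw [Matrix.transpose_add, Matrix.transpose_smul, Matrix.transpose_smul, JJ_tr]
    simp only [Matrix.add_mul, Matrix.mul_add, Matrix.smul_mul, Matrix.mul_smul]
    rw [hCC, hCr, hJC, JJ_mul_JJ]
    module
  have e8 : n * n = α * α * n' := (indep (e6.symm.trans e7)).1
  obtain ⟨s, hs⟩ : α ∣ n := by
    have : α ^ 2 ∣ n ^ 2 := ⟨n', by rw [sq, sq, e8]⟩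
    exact (Int.pow_dvd_pow_iff two_ne_zero).1 this
  have hα0 : α ≠ 0 := fun e => hn (by rw [hs, e, zero_mul])
  have hn's : n' = s ^ 2 := by
    apply mul_left_cancel₀ (mul_ne_zero hα0 hα0)
    rw [← e8, hs]; ring
  rw [hι] at hk1 hsq
  rcases num_end hp hk0 hk1 hd hsq hn's with h | h
  · left
    intro w hw
    have hc : (Finset.univ.filter (C u0)).card ≤ 1 := by omega
    exact Finset.card_le_one.1 hc w (by simpa using hw) w0 (by simpa using h0')
  · right
    intro w hw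
    have h5 := Finset.card_filter_add_card_filter_not (s := Finset.univ) (C u0)
    rw [Finset.card_univ, hι] at h5
    have hc : (Finset.univ.filter (fun w => ¬ C u0 w)).card ≤ 1 := by omega
    exact Finset.card_le_one.1 hc w (by simpa using hw) w1 (by simpa using h1')

end H24.Sq
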