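import Mathlib
import Cfsg.Agent.Lib.Perm24.Sq1
import Cfsg.Agent.Lib.Perm24.Sq2
import Cfsg.Agent.Lib.Perm.PrimeDegree

/-!
# Doubly transitive groups of degree `p ^ 2 + 1`, III

The kernel of the action of a point stabiliser on a system of blocks of size `p` has a normal
Sylow `p`-subgroup.
-/

set_option autoImplicit false
set_option linter.unusedSectionVars false

namespace H24.Sq

open MulAction

variable {G Ω : Type*} [Group G] [MulAction G Ω] [Finite G] [Finite Ω] [FaithfulSMul G Ω]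
  {p : ℕ} [hp : Fact p.Prime] {a : Ω} {R : Subgroup G}

theorem St.triv (hR : St p a R) {b : Ω} (hb : b ≠ a) {g : G} (ha : g • a = a) (hgb : g • b = b)
    {k : ℕ} (hk : g ^ p ^ k = 1) : g = 1 := by
  have h1 : orderOf g ∣ p ^ k := orderOf_dvd_of_pow_eq_one hk
  have h2 : orderOf g ∣ Nat.card ↥(stabilizer G a ⊓ stabilizer G b) :=
    Subgroup.orderOf_dvd_natCard _ (show g ∈ stabilizer G a ⊓ stabilizer G b from ⟨ha, hgb⟩)
  have hc : Nat.Coprime (p ^ k) (Nat.card ↥(stabilizer G a ⊓ stabilizer G b)) :=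
    Nat.Coprime.pow_left _ ((Nat.Prime.coprime_iff_not_dvd hp.out).2 (hR.pp b hb))
  exact orderOf_eq_one_iff.1 (Nat.eq_one_of_dvd_coprimes hc h1 h2)

theorem St.pow_eq (hR : St p a R) {r : G} (hr : r ∈ R) : r ^ p ^ 2 = 1 := by
  rw [← hR.cd]
  exact congrArg Subtype.val (pow_card_eq_one' (x := (⟨r, hr⟩ : R)))

theorem St.reg (hR : St p a R) {b : Ω} (hb : b ≠ a) {r : G} (hr : r ∈ R) (h : r • b = b) : r = 1 :=
  hR.triv hb (hR.fx r hr) h (hR.pow_eq hr)

theorem St.reg' (hR : St p a R) {b : Ω} (hb : b ≠ a) {r s : G} (hr : r ∈ R) (hs : s ∈ R)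
    (h : r • b = s • b) : r = s := by
  have := hR.reg hb (R.mul_mem (R.inv_mem hs) hr) (by rw [mul_smul, h, inv_smul_smul])
  exact (inv_mul_eq_one.1 this).symm

theorem St.card_stB (hR : St p a R) {B : Set Ω} (hB : BC G a B) {b : Ω} (hb : b ∈ B) :
    Nat.card (stB hB R hR.fx hb) = B.ncard := by
  have e := ncard_orbit (stB hB R hR.fx hb) b
  have : stB hB R hR.fx hb ⊓ stabilizer G b = ⊥ := by
    rw [eq_bot_iff]
    intro g hg
    exact hR.reg (hB.ne hb) hg.1.1 hg.2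
  rw [this, orbit_stB hB hR.toRT hb] at e
  simpa using e.symm

theorem St.le_of_lt (hR : St p a R) {P T : Subgroup G} (hP : Nat.card P = p) (hPT : P ≤ T)
    (hT : T ≤ R) {x : G} (hx : x ∈ T) (hxP : x ∉ P) : R ≤ T := by
  have h1 : Nat.card T ∣ p ^ 2 := hR.cd ▸ Subgroup.card_dvd_of_le hT
  obtain ⟨n, -, hn⟩ := (Nat.dvd_prime_pow hp.out).1 h1
  have h2 : p ≤ Nat.card T := hP ▸ Subgroup.card_le_of_le hPT
  have hp2 := hp.out.two_le
  rcases three_cases hn (Nat.le_of_dvd (pow_pos hp.out.pos 2) h1) with h | h | h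
  · omega
  · exact absurd (Subgroup.eq_of_le_of_card_ge hPT (by omega) ▸ hx) hxP
  · exact (Subgroup.eq_of_le_of_card_ge hT (by rw [h, hR.cd])).ge

/-- The product of two commuting subgroups. -/
def prodSub (Q P : Subgroup G) (h : ∀ x ∈ Q, ∀ y ∈ P, x * y = y * x) : Subgroup G where
  carrier := {g | ∃ x ∈ Q, ∃ y ∈ P, g = x * y}
  one_mem' := ⟨1, Q.one_mem, 1, P.one_mem, by simp⟩
  mul_mem' := by
    rintro _ _ ⟨x, hx, y, hy, rfl⟩ ⟨x', hx', y', hy', rfl⟩
    refine ⟨x * x', Q.mul_mem hx hx', y * y', P.mul_mem hy hy', ?_⟩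
    rw [mul_assoc, ← mul_assoc y, ← h x' hx' y hy]; simp only [mul_assoc]
  inv_mem' := by
    rintro _ ⟨x, hx, y, hy, rfl⟩
    exact ⟨x⁻¹, Q.inv_mem hx, y⁻¹, P.inv_mem hy, by
      rw [mul_inv_rev, h _ (Q.inv_mem hx) _ (P.inv_mem hy)]⟩

theorem St.decomp (hR : St p a R) {P Q : Subgroup G} (hP : Nat.card P = p) (hPR : P ≤ R)
    (hQR : Q ≤ R) {x : G} (hx : x ∈ Q) (hxP : x ∉ P) {r : G} (hr : r ∈ R) :
    ∃ q ∈ Q, ∃ c ∈ P, r = q * c := by
  refine hR.le_of_lt (T := prodSub Q P (fun x hx y hy => hR.cm x (hQR hx) y (hPR hy))) hP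
    (fun y hy => ⟨1, Q.one_mem, y, hy, by simp⟩) ?_ ⟨x, hx, 1, P.one_mem, by simp⟩ hxP hr
  rintro _ ⟨x, hx, y, hy, rfl⟩
  exact R.mul_mem (hQR hx) (hPR hy)

/-- A normal subgroup of the stabiliser of `a` preserving `B`. -/
structure KH (a : Ω) (B : Set Ω) (K : Subgroup G) : Prop where
  fx : ∀ k ∈ K, k • a = a
  nr : ∀ s : G, s • a = a → ∀ k ∈ K, s⁻¹ * k * s ∈ K
  pr : ∀ k ∈ K, ∀ u ∈ B, k • u ∈ B

theorem inv_fix {s : G} {w : Ω} (hs : s • w = w) : s⁻¹ • w = w := by rw [inv_smul_eq_iff, hs]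

theorem KH.nr' {B : Set Ω} {K : Subgroup G} (hK : KH a B K) {s : G} (hs : s • a = a) {k : G}
    (hk : k ∈ K) : s * k * s⁻¹ ∈ K := by
  simpa using hK.nr s⁻¹ (inv_fix hs) k hk

theorem KH.im {B : Set Ω} {K : Subgroup G} (hK : KH a B K) {s : G} (hs : s • a = a) :
    KH a (im s B) K where
  fx := hK.fx
  nr := hK.nr
  pr := fun k hk u hu => by
    have := hK.pr _ (hK.nr s hs k hk) _ hu
    rw [mul_smul, mul_smul, smul_inv_smul] at this
    exact this

/-- `B` as a `K`-set. -/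
def KH.sub {B : Set Ω} {K : Subgroup G} (hK : KH a B K) : SubMulAction K Ω where
  carrier := B
  smul_mem' := fun k _ hu => hK.pr k k.2 _ hu

/-- Double transitivity of `K` on `B`. -/
def T2On (K : Subgroup G) (B : Set Ω) : Prop :=
  ∀ u ∈ B, ∀ v ∈ B, ∀ u' ∈ B, ∀ v' ∈ B, u ≠ v → u' ≠ v' → ∃ k ∈ K, k • u = u' ∧ k • v = v'

theorem T2On.im {B : Set Ω} {K : Subgroup G} (hK : KH a B K) (h : T2On K B) {s : G}
    (hs : s • a = a) : T2On K (im s B) := by
  intro u hu v hv u' hu' v' hv' huv huv'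
  obtain ⟨k, hk, h1, h2⟩ := h _ hu _ hv _ hu' _ hv' (fun e => huv (MulAction.injective _ e))
    (fun e => huv' (MulAction.injective _ e))
  refine ⟨s * k * s⁻¹, hK.nr' hs hk, ?_, ?_⟩
  · rw [mul_smul, mul_smul, h1, smul_inv_smul]
  · rw [mul_smul, mul_smul, h2, smul_inv_smul]

/-- `K`-stabiliser inclusion. -/
def rel (K : Subgroup G) (u v : Ω) : Prop := ∀ k ∈ K, k • u = u → k • v = v

theorem exists_rel (hΩ : Nat.card Ω = p ^ 2 + 1) (hp2 : p ≠ 2) (hR : St p a R) {B : Set Ω}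
    (hB : BC G a B) (hBc : B.ncard = p) {b : Ω} (hb : b ∈ B) {K : Subgroup G} (hK : KH a B K)
    (h2 : T2On K B) : ∃ w, w ≠ a ∧ w ∉ B ∧ rel K b w := by
  classical
  have hba := hB.ne hb
  obtain ⟨w, hw, hwB⟩ : ∃ w, w ≠ a ∧ w ∉ B := by
    by_contra hcon
    push Not at hcon
    have hsub : ({a}ᶜ : Set Ω) ⊆ B := fun w hw => hcon w hw
    have := Set.ncard_le_ncard hsub
    rw [ncard_compl hΩ, hBc] at this
    have := hp.out.two_le
    nlinarith
  obtain ⟨z, hz, rfl⟩ := hR.tr b w hba hw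
  obtain ⟨m, hm⟩ : ∃ m, p ^ 2 + 1 = m + m := (hp.out.odd_of_ne_two hp2).pow.add_one
  set x := z ^ m with hx
  have hxR : x ∈ R := R.pow_mem hz m
  have hxx : x * x = z := by rw [hx, ← pow_add, ← hm, pow_succ, hR.pow_eq hz, one_mul]
  have hxa := hR.fx x hxR
  have hza := hR.fx z hz
  let ι := hK.sub
  have : Fintype ι := Fintype.ofFinite _
  have hι : Fintype.card ι = p := by
    rw [← Nat.card_eq_fintype_card, ← hBc]; exact Nat.card_coe_set_eq B
  let cj : ∀ y : G, y • a = a → K → K := fun y hy k => ⟨y⁻¹ * k * y, hK.nr y hy k k.2⟩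
  let ρ : ∀ y : G, y • a = a → K → Equiv.Perm ι := fun y hy k => MulAction.toPerm (cj y hy k)
  have hρ : ∀ {y} hy {k} {u : ι}, ((ρ y hy k u : ι) : Ω) = (y⁻¹ * k * y) • (u : Ω) :=
    fun {y} hy {k u} => rfl
  have htr : ∀ y hy, Tr2 (ρ y hy) := by
    intro y hy u v u' v' huv huv'
    obtain ⟨k, hk, h1, h3⟩ := h2 u u.2 v v.2 u' u'.2 v' v'.2 (fun e => huv (Subtype.ext e))
      (fun e => huv' (Subtype.ext e))
    refine ⟨⟨y * k * y⁻¹, hK.nr' hy hk⟩, Subtype.ext ?_, Subtype.ext ?_⟩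
    · rw [hρ hy, ← h1]; congr 1; simp [mul_assoc]
    · rw [hρ hy, ← h3]; congr 1; simp [mul_assoc]
  let A : G → ι → ι → Prop := fun y u v => ∃ k ∈ K, k • b = u ∧ k • y • b = y • (v : Ω)
  have hA0 : ∀ (y : G) (g : G), g ∈ K → ∀ (u v u' v' : ι), (u' : Ω) = g • (u : Ω) →
      y • (v' : Ω) = g • y • (v : Ω) → (A y u' v' ↔ A y u v) := by
    intro y g hg u v u' v' hu hv
    constructor
    · rintro ⟨k, hk, h1, h3⟩
      refine ⟨g⁻¹ * k, K.mul_mem (K.inv_mem hg) hk, ?_, ?_⟩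
      · rw [mul_smul, h1, hu, inv_smul_smul]
      · rw [mul_smul, h3, hv, inv_smul_smul]
    · rintro ⟨k, hk, h1, h3⟩
      refine ⟨g * k, K.mul_mem hg hk, ?_, ?_⟩
      · rw [mul_smul, h1, hu]
      · rw [mul_smul, h3, hv]
  have h1a : (1 : G) • a = a := one_smul _ _
  have hA1 : ∀ y hy g u v, A y (ρ 1 h1a g u) (ρ y hy g v) ↔ A y u v := by
    intro y hy g u v
    refine hA0 y g g.2 _ _ _ _ (by rw [hρ h1a]; simp) ?_
    rw [hρ hy, mul_smul, mul_smul, smul_inv_smul]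
  have hA2 : ∀ g u v, A x (ρ x hxa g u) (ρ z hza g v) ↔ A x u v := by
    intro g u v
    refine hA0 x _ (hK.nr x hxa g g.2) _ _ _ _ (hρ hxa) ?_
    rw [hρ hza, ← hxx, ← mul_smul, ← mul_smul]
    congr 1; group
  let b0 : ι := ⟨b, hb⟩
  have hAb : ∀ y, A y b0 b0 := fun y => ⟨1, K.one_mem, one_smul _ _, one_smul _ _⟩
  have hAn : ∀ y : G, y • a = a → ∃ v, ¬ A y b0 v := by
    intro y hy
    by_contra hcon
    push Not at hcon
    have e := ncard_orbit (K ⊓ stabilizer G b) (y • b)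
    have : orbit ↥(K ⊓ stabilizer G b) (y • b) = im y B := by
      ext w
      rw [mem_orbit]
      constructor
      · rintro ⟨g, hg, rfl⟩
        exact (hK.im hy).pr g hg.1 _ (smul_mem_im.2 hb)
      · intro hw
        obtain ⟨k, hk, h1, h3⟩ := hcon ⟨_, hw⟩
        exact ⟨k, ⟨hk, h1⟩, by rw [h3]; exact smul_inv_smul _ _⟩
    rw [this, ncard_im, hBc] at e
    apply hR.pp b hba
    refine (Dvd.intro _ e).trans (Subgroup.card_dvd_of_le ?_)
    exact fun g hg => ⟨hK.fx g hg.1, hg.2⟩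
  obtain ⟨v1, hv1⟩ := hAn x hxa
  obtain ⟨w1, hw1⟩ := hAn z hza
  rcases shift_equiv hp.out hι (htr 1 h1a) (htr x hxa) (htr z hza) (hA1 x hxa) hA2 (hA1 z hza)
    (hAb x) hv1 (hAb z) hw1 with h | h
  · refine ⟨z • b, hw, hwB, fun k hk hkb => ?_⟩
    have := h (ρ z hza ⟨k, hk⟩ b0) ⟨k, hk, hkb, by rw [hρ hza, mul_smul, mul_smul, smul_inv_smul]⟩
    have e := congrArg Subtype.val this
    rw [hρ hza, mul_smul, mul_smul, inv_smul_eq_iff] at e
    exact e
  · refine ⟨z • (w1 : Ω), hR.ne hz (hB.ne w1.2), fun h' => hwB (hB.bl z hza _ w1.2 h' b hb),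
      fun k hk hkb => ?_⟩
    have := h (ρ z hza ⟨k, hk⟩ w1) (by
      rw [hA0 z k hk b0 w1 b0 _ hkb.symm (by rw [hρ hza, mul_smul, mul_smul, smul_inv_smul])]
      exact hw1)
    have e := congrArg Subtype.val this
    rw [hρ hza, mul_smul, mul_smul, inv_smul_eq_iff] at e
    exact e

theorem grid (hΩ : Nat.card Ω = p ^ 2 + 1) (hp2 : p ≠ 2) (hG : T2 G Ω) (hR : St p a R) {B : Set Ω}
    (hB : BC G a B) (hBc : B.ncard = p) {b : Ω} (hb : b ∈ B) {K : Subgroup G} (hK : KH a B K)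
    (h2 : T2On K B) : False := by
  have hba := hB.ne hb
  have hp3 : 3 ≤ p := by have := hp.out.two_le; omega
  have hsm : ∀ s : G, s • a = a → ∀ u v : Ω, rel K u v → rel K (s • u) (s • v) := by
    intro s hs u v h k hk hku
    have := h _ (hK.nr s hs k hk) (by rw [mul_smul, mul_smul, hku, inv_smul_smul])
    rw [mul_smul, mul_smul, inv_smul_eq_iff] at this
    exact this
  have hcard : ∀ u, u ≠ a → p * Nat.card ↥(K ⊓ stabilizer G u) = Nat.card K := by
    intro u hu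
    obtain ⟨r, hr, rfl⟩ := hR.tr b u hba hu
    have hra := hR.fx r hr
    have e := ncard_orbit K (r • b)
    have : orbit K (r • b) = im r B := by
      ext w
      rw [mem_orbit]
      constructor
      · rintro ⟨g, hg, rfl⟩
        exact (hK.im hra).pr g hg _ (smul_mem_im.2 hb)
      · intro hw
        by_cases e : r • b = w
        · exact ⟨1, K.one_mem, by rw [one_smul, e]⟩
        · obtain ⟨k, hk, h1, -⟩ := h2.im hK hra _ (smul_mem_im.2 hb) _ hw _ hw _
            (smul_mem_im.2 hb) e (Ne.symm e)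
          exact ⟨k, hk, h1⟩
    rwa [this, ncard_im, hBc] at e
  have hsy : ∀ u v, u ≠ a → v ≠ a → rel K u v → rel K v u := by
    intro u v hu hv h k hk hkv
    have hle : K ⊓ stabilizer G u ≤ K ⊓ stabilizer G v := fun g hg => ⟨hg.1, h g hg.1 hg.2⟩
    have := Subgroup.eq_of_le_of_card_ge hle (le_of_eq (Nat.eq_of_mul_eq_mul_left hp.out.pos
      ((hcard v hv).trans (hcard u hu).symm)))
    have hk' : k ∈ K ⊓ stabilizer G u := this ▸ ⟨hk, hkv⟩
    exact hk'.2
  have htr : ∀ u v w : Ω, rel K u v → rel K v w → rel K u w :=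
    fun u v w h h' k hk hku => h' k hk (h k hk hku)
  have hun : ∀ v ∈ B, ∀ v' ∈ B, rel K v v' → v = v' := by
    intro v hv v' hv' h
    by_contra hne
    obtain ⟨v'', h1, h3⟩ : ∃ v'' ∈ B, v'' ∉ ({v, v'} : Set Ω) := by
      by_contra hcon
      push Not at hcon
      have := Set.ncard_le_ncard (show B ⊆ {v, v'} from hcon)
      rw [Set.ncard_pair hne] at this
      omega
    simp only [Set.mem_insert_iff, Set.mem_singleton_iff, not_or] at h3
    obtain ⟨k, hk, h4, h5⟩ := h2 v hv v' hv' v hv v'' h1 hne (Ne.symm h3.1)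
    exact h3.2 (h5.symm.trans (h k hk h4))
  let C : Set Ω := {v | v ≠ a ∧ rel K b v}
  have hbC : b ∈ C := ⟨hba, fun _ _ h => h⟩
  have hC : BC G a C := ⟨fun h => h.1 rfl, fun g hg u hu hgu v hv =>
    ⟨fun e => hv.1 (MulAction.injective g (e.trans hg.symm)),
      htr _ _ _ hgu.2 (hsm g hg _ _ (htr _ _ _ (hsy _ _ hba hu.1 hu.2) hv.2))⟩⟩
  obtain ⟨w0, hw0, hw0B, hw0r⟩ := exists_rel hΩ hp2 hR hB hBc hb hK h2
  have hCc : C.ncard = p := by
    rcases hC.card hΩ hR.toRT hbC with h | h | h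
    · rw [Set.ncard_eq_one] at h
      obtain ⟨x, hx⟩ := h
      have h1 : w0 ∈ C := ⟨hw0, hw0r⟩
      have h3 := hbC
      rw [hx] at h1 h3
      exact absurd ((h1.trans h3.symm) ▸ hb) hw0B
    · exact h
    · obtain ⟨v, hv, hvb⟩ := Set.exists_ne_of_one_lt_ncard (s := B) (by omega) b
      have : v ∈ C := by rw [h]; exact hB.ne hv
      exact absurd (hun b hb v hv this.2).symm hvb
  obtain ⟨t, hta, htb⟩ := hG a b b a hba.symm hba
  have hC' := hC.im t
  rw [hta] at hC'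
  have hC'c : (im t C).ncard = p := (ncard_im _ _).trans hCc
  have hF : ∀ w, w ∈ insert b (im t C) ↔ ∀ k ∈ K, k • b = b → (t * k * t⁻¹) • w = w := by
    intro w
    constructor
    · rintro (rfl | hw) k hk hkb
      · have : t⁻¹ • w = a := by rw [inv_smul_eq_iff, hta]
        rw [mul_smul, mul_smul, this, hK.fx k hk, hta]
      · rw [mul_smul, mul_smul, hw.2 k hk hkb, smul_inv_smul]
    · intro hw
      by_cases e : w = b
      · exact Or.inl e
      · refine Or.inr ⟨fun e' => e (by rw [← hta, ← e', smul_inv_smul]), fun k hk hkb => ?_⟩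
        have := hw k hk hkb
        rw [mul_smul, mul_smul] at this
        exact eq_inv_smul_iff.2 this
  have haF : a ∈ insert b (im t C) := Or.inr (htb ▸ smul_mem_im.2 hbC)
  set D := insert b (im t C) \ {a} with hD
  have hDc : D.ncard = p := by
    have := Set.ncard_sdiff_singleton_add_one haF
    rw [Set.ncard_insert_of_notMem hC'.nm, hC'c] at this
    exact Nat.succ_injective this
  have hDF : insert a D = insert b (im t C) := by
    rw [hD, Set.insert_sdiff_singleton, Set.insert_eq_of_mem haF]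
  by_cases hDC : D ⊆ C
  · have : D = C := Set.eq_of_subset_of_ncard_le hDC (by omega)
    exact design (by omega) hΩ hG hC hC' hCc hC'c hba.symm (this ▸ hDF)
  obtain ⟨w, hwD, hwC⟩ := Set.not_subset.1 hDC
  have hwa : w ≠ a := hwD.2
  obtain ⟨r, hr, rfl⟩ := hR.tr b w hba hwa
  obtain ⟨x0, hx0, rfl⟩ := hR.tr b w0 hba hw0
  obtain ⟨q, hq, c, hc, rfl⟩ := hR.decomp (P := stB hB R hR.fx hb) (Q := stB hC R hR.fx hbC)
    ((hR.card_stB hB hb).trans hBc) (fun g hg => hg.1) (fun g hg => hg.1) (x := x0)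
    ⟨hx0, hw0, hw0r⟩ (fun h => hw0B h.2) hr
  have hqa := hR.fx q hq.1
  have hBD : B ⊆ D := by
    intro v hv
    refine ⟨(hF v).2 (fun k hk hkb => ?_), hB.ne hv⟩
    have hhb : (t * k * t⁻¹) • b = b := (hF b).1 (Or.inl rfl) k hk hkb
    have hha : (t * k * t⁻¹) • a = a := (hF a).1 haF k hk hkb
    by_cases e : v = b
    · rw [e, hhb]
    obtain ⟨k1, hk1, h4, h5⟩ := h2.im hK hqa (q • b) (smul_mem_im.2 hb) ((q * c) • b)
      (by rw [mul_smul]; exact smul_mem_im.2 hc.2) (q • b) (smul_mem_im.2 hb) (q • v)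
      (smul_mem_im.2 hv) (fun e' => hwC (e' ▸ hq.2)) (fun e' => e (MulAction.injective q e').symm)
    have hk1b : k1 • b = b := hsy _ _ hba hq.2.1 hq.2.2 k1 hk1 h4
    have hma : (t⁻¹ * k1 * t) • a = a := by rw [mul_smul, mul_smul, hta, hk1b, ← hta, inv_smul_smul]
    have hmb : (t⁻¹ * k1 * t) • b = b := by
      rw [mul_smul, mul_smul, htb, hK.fx k1 hk1, ← htb, inv_smul_smul]
    have h6 := (hF _).1 hwD.1 _ (hK.nr _ hma k hk) (by
      rw [mul_smul, mul_smul, hmb, hkb, inv_fix hmb])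
    have h7 : (t * k * t⁻¹) • q • v = q • v := by
      have e3 : t * ((t⁻¹ * k1 * t)⁻¹ * k * (t⁻¹ * k1 * t)) * t⁻¹ = k1⁻¹ * (t * k * t⁻¹) * k1 := by
        group
      rw [e3, mul_smul, mul_smul, h5, inv_smul_eq_iff, h5] at h6
      exact h6
    obtain ⟨c', hc', rfl⟩ := hR.tr b v hba (hB.ne hv)
    have h8 : rel K (c' • b) (q • c' • b) := by
      have := hsm c' (hR.fx c' hc') _ _ hq.2.2
      rwa [← mul_smul, hR.cm c' hc' q hq.1, mul_smul] at this
    have h9 := hsm _ hha _ _ (hsy _ _ (hB.ne hv) (hR.ne hq.1 (hB.ne hv)) h8)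
    rw [h7] at h9
    exact (hun _ hv _ (hB.bl _ hha b hb (by rw [hhb]; exact hb) _ hv) (htr _ _ _ h8 h9)).symm
  have : B = D := Set.eq_of_subset_of_ncard_le hBD (by omega)
  exact design (by omega) hΩ hG hB hC' hBc hC'c hba.symm (this ▸ hDF)

/-- The kernel of the action on the translates of a block. -/
def KK {B : Set Ω} (hB : BC G a B) : Subgroup G where
  carrier := {g | g • a = a ∧ ∀ s : G, s • a = a → ∀ u ∈ B, (s⁻¹ * g * s) • u ∈ B}
  one_mem' := ⟨one_smul _ _, fun s _ u hu => by simpa using hu⟩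
  mul_mem' := by
    rintro x y ⟨hx, hx'⟩ ⟨hy, hy'⟩
    refine ⟨by rw [mul_smul, hy, hx], fun s hs u hu => ?_⟩
    have : s⁻¹ * (x * y) * s = (s⁻¹ * x * s) * (s⁻¹ * y * s) := by group
    rw [this, mul_smul]
    exact hx' s hs _ (hy' s hs u hu)
  inv_mem' := by
    rintro x ⟨hx, hx'⟩
    refine ⟨inv_fix hx, fun s hs u hu => ?_⟩
    have : s⁻¹ * x⁻¹ * s = (s⁻¹ * x * s)⁻¹ := by group
    rw [this]
    refine hB.bl _ (inv_fix ?_) _ (hx' s hs u hu) (by rw [inv_smul_smul]; exact hu) u hu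
    rw [mul_smul, mul_smul, hs, hx, inv_fix hs]

theorem KK_KH {B : Set Ω} (hB : BC G a B) : KH a B (KK hB) where
  fx := fun k hk => hk.1
  nr := fun s hs k hk => ⟨by rw [mul_smul, mul_smul, hs, hk.1, inv_fix hs], fun s' hs' u hu => by
    have : s'⁻¹ * (s⁻¹ * k * s) * s' = (s * s')⁻¹ * k * (s * s') := by group
    rw [this]
    exact hk.2 _ (by rw [mul_smul, hs', hs]) u hu⟩
  pr := fun k hk u hu => by simpa using hk.2 1 (one_smul _ _) u hu

theorem exists_normal_cyc (hΩ : Nat.card Ω = p ^ 2 + 1) (hp2 : p ≠ 2) (hG : T2 G Ω)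
    (hR : St p a R) {B : Set Ω} (hB : BC G a B) (hBc : B.ncard = p) {b : Ω} (hb : b ∈ B) :
    ∃ c ∈ R, orderOf c = p ∧ (∀ x ∈ Subgroup.zpowers c, x • b ∈ B) ∧
      (∀ w ∈ B, ∃ x ∈ Subgroup.zpowers c, x • b = w) ∧
      ∀ s : G, s • a = a → s * c * s⁻¹ ∈ Subgroup.zpowers c := by
  have hba := hB.ne hb
  set P := stB hB R hR.fx hb with hP
  have hPc : Nat.card P = p := (hR.card_stB hB hb).trans hBc
  obtain ⟨c0, hc0⟩ := exists_prime_orderOf_dvd_card' (G := P) p (by rw [hPc])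
  have hco : orderOf (c0 : G) = p := by rw [Subgroup.orderOf_coe, hc0]
  obtain ⟨c, hcP⟩ := c0
  simp only at hco
  have hzp : Subgroup.zpowers c = P :=
    Subgroup.eq_of_le_of_card_ge (Subgroup.zpowers_le.2 hcP) (by rw [hPc, Nat.card_zpowers, hco])
  have hcp : c ^ p = 1 := by rw [← hco, pow_orderOf_eq_one]
  have hc1 : c ≠ 1 := fun e => by rw [e, orderOf_one] at hco; exact hp.out.one_lt.ne hco
  refine ⟨c, hcP.1, hco, fun x hx => (hzp ▸ hx : x ∈ P).2, fun w hw => ?_, fun s hs => ?_⟩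
  · rw [hzp, ← mem_orbit, orbit_stB hB hR.toRT hb]; exact hw
  have hK := KK_KH hB
  have hcK : c ∈ KK hB := by
    refine ⟨hR.fx c hcP.1, fun s hs u hu => ?_⟩
    have hsu : s • u ≠ a := fun e => hB.ne hu (MulAction.injective s (e.trans hs.symm))
    obtain ⟨r, hr, hrb⟩ := hR.tr b _ hba hsu
    have h1 : (s⁻¹ * r) • a = a := by rw [mul_smul, hR.fx r hr, inv_fix hs]
    have := hB.bl _ h1 b hb (by rw [mul_smul, hrb, inv_smul_smul]; exact hu) _ hcP.2
    rwa [← mul_smul, mul_assoc, hR.cm r hr c hcP.1, ← mul_assoc, mul_smul, hrb, ← mul_smul] at this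
  set y := s * c * s⁻¹ with hy
  have hyK : y ∈ KK hB := hK.nr' hs hcK
  have hyp : y ^ p = 1 := by rw [hy, conj_pow, hcp]; simp
  have hy1 : y ≠ 1 := fun e => hc1 (by rwa [hy, conj_eq_one_iff] at e)
  have key : ∀ w, w ≠ a → y • c • w = c • y • w ∧ ∃ n : ℕ, y • w = c ^ n • w := by
    intro w hw
    obtain ⟨r, hr, rfl⟩ := hR.tr b w hba hw
    have hra := hR.fx r hr
    have hK' := hK.im hra
    have hB' := hB.im r
    rw [hra] at hB'
    have hcard : Nat.card hK'.sub = p := by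
      rw [← hBc, ← ncard_im r B]; exact Nat.card_coe_set_eq _
    let w0 : hK'.sub := ⟨r • b, smul_mem_im.2 hb⟩
    obtain ⟨e, he0, he⟩ := H26.exists_frame hcard (c := (⟨c, hcK⟩ : KK hB)) (Subtype.ext hcp)
      (a := w0) (fun e => hc1 (hR.reg hw hcP.1 (congrArg Subtype.val e)))
    rcases H26.affine_or_two_trans he with h | h
    · obtain ⟨m, β, hm⟩ := h ⟨y, hyK⟩
      have hm1 : m = 1 := by
        by_contra hne
        have h1 : (1 - m) ≠ 0 := sub_ne_zero.2 (Ne.symm hne)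
        have := hm (β / (1 - m))
        rw [show m * (β / (1 - m)) + β = β / (1 - m) by field_simp; ring] at this
        exact hy1 (hR.triv (hB'.ne (e (β / (1 - m))).2) hyK.1 (congrArg Subtype.val this)
          (k := 1) (by rw [pow_one, hyp]))
      have e1 : (⟨y, hyK⟩ : KK hB) • (⟨c, hcK⟩ : KK hB) • e 0 =
          (⟨c, hcK⟩ : KK hB) • (⟨y, hyK⟩ : KK hB) • e 0 := by
        rw [he, hm, hm, he, hm1]; congr 1; ring
      have e2 : (⟨y, hyK⟩ : KK hB) • e 0 = (⟨c, hcK⟩ : KK hB) ^ β.val • e 0 := by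
        rw [H26.frame_pow_val he, hm]; congr 1; ring
      rw [he0] at e1 e2
      exact ⟨congrArg Subtype.val e1, β.val, congrArg Subtype.val e2⟩
    · exfalso
      rw [is_two_pretransitive_iff] at h
      refine grid hΩ hp2 hG hR hB' ((ncard_im _ _).trans hBc) (smul_mem_im.2 hb) hK' ?_
      intro u hu v hv u' hu' v' hv' huv huv'
      obtain ⟨g, h1, h3⟩ := @h ⟨u, hu⟩ ⟨v, hv⟩ ⟨u', hu'⟩ ⟨v', hv'⟩
        (fun e => huv (congrArg Subtype.val e)) (fun e => huv' (congrArg Subtype.val e))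
      exact ⟨g, g.2, congrArg Subtype.val h1, congrArg Subtype.val h3⟩
  have hcomm : Commute y c := by
    apply FaithfulSMul.eq_of_smul_eq_smul (α := Ω)
    intro w
    by_cases hw : w = a
    · rw [hw, mul_smul y, mul_smul c, hcK.1, hyK.1, hcK.1]
    · rw [mul_smul y, mul_smul c, (key w hw).1]
  obtain ⟨n, hn⟩ := (key b hba).2
  have h1 : (c ^ n)⁻¹ * y = 1 := by
    refine hR.triv hba (k := 1) ?_ (by rw [mul_smul, hn, inv_smul_smul]) ?_
    · rw [mul_smul, hyK.1, inv_fix (hR.fx _ (R.pow_mem hcP.1 n))]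
    · rw [pow_one, Commute.mul_pow (hcomm.symm.pow_left n).inv_left, hyp, inv_pow, ← pow_mul,
        mul_comm n, pow_mul, hcp]; simp
  rw [← inv_mul_eq_one.1 h1]
  exact Subgroup.npow_mem_zpowers c n

end H24.Sq
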