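import Mathlib
import Cfsg.Agent.Lib.Perm24.Sq3

/-!
# Doubly transitive groups of degree `p ^ 2 + 1`, IV

The Sylow `p`-subgroup of a point stabiliser is normal in it, and the final contradiction.
-/

set_option autoImplicit false
set_option linter.unusedSectionVars false

namespace H24.Sq

open MulAction

theorem central_eq_one {X : Type*} [Group X] [Finite X] (Q : Subgroup X)
    (hQc : ∀ x ∈ Q, ∀ y ∈ Q, x * y = y * x) {N : ℕ} (hQ : ∀ x ∈ Q, x ^ N = 1)
    (hidx : Nat.Coprime N Q.index) {c y h : X} (hcQ : c ∈ Q) (hc : ∀ g, g * c = c * g)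
    (hy : y ∈ commutator X) (hh : Nat.Coprime N (orderOf h)) (e : c = y * h) : c = 1 := by
  let _ : CommGroup Q := { (inferInstance : Group Q) with
    mul_comm := fun x y => Subtype.ext (hQc x x.2 y y.2) }
  let V : X →* Q := MonoidHom.transfer (MonoidHom.id Q)
  have h1 := MonoidHom.transfer_eq_pow (MonoidHom.id Q) c (fun k g _ => by
    have : Commute g⁻¹ (c ^ k) := Commute.pow_right (hc g⁻¹) k
    rw [this.eq]; simp)
  have h2 : V y = 1 := Abelianization.commutator_subset_ker V hy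
  have h3 : V h = 1 := by
    have e1 : V h ^ N = 1 := Subtype.ext (hQ _ (V h).2)
    have e2 : V h ^ orderOf h = 1 := by rw [← map_pow, pow_orderOf_eq_one, map_one]
    exact orderOf_eq_one_iff.1 (Nat.eq_one_of_dvd_coprimes hh (orderOf_dvd_of_pow_eq_one e1)
      (orderOf_dvd_of_pow_eq_one e2))
  have h4 : V c = 1 := by rw [e, map_mul, h2, h3, one_mul]
  have h5 : c ^ Q.index = 1 := congrArg Subtype.val (h1.symm.trans h4)
  exact orderOf_eq_one_iff.1 (Nat.eq_one_of_dvd_coprimes hidx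
    (orderOf_dvd_of_pow_eq_one (hQ c hcQ)) (orderOf_dvd_of_pow_eq_one h5))

variable {G Ω : Type*} [Group G] [MulAction G Ω] [Finite G] [Finite Ω] [FaithfulSMul G Ω]
  {p : ℕ} [hp : Fact p.Prime] {a : Ω} {R : Subgroup G}

theorem card_stab (hΩ : Nat.card Ω = p ^ 2 + 1) (hG : T2 G Ω) {b : Ω} (hb : b ≠ a) :
    p ^ 2 * Nat.card ↥(stabilizer G a ⊓ stabilizer G b) = Nat.card (stabilizer G a) := by
  have e2 := ncard_orbit (stabilizer G a) b
  rwa [orbit_stab hG hb, ncard_compl hΩ] at e2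

theorem BC_orbit {D : Subgroup G} (hD : ∀ k ∈ D, k • a = a)
    (hn : ∀ s : G, s • a = a → ∀ k ∈ D, s * k * s⁻¹ ∈ D) {b : Ω} (hb : b ≠ a) :
    BC G a (orbit D b) where
  nm := fun h => by
    obtain ⟨g, hg, e⟩ := mem_orbit.1 h
    exact hb (MulAction.injective g (e.trans (hD g hg).symm))
  bl := by
    intro g hg u hu hgu v hv
    obtain ⟨x, hx, rfl⟩ := mem_orbit.1 hu
    obtain ⟨y, hy, rfl⟩ := mem_orbit.1 hv
    obtain ⟨z, hz, e⟩ := mem_orbit.1 hgu
    refine mem_orbit.2 ⟨g * (y * x⁻¹) * g⁻¹ * z, D.mul_mem (hn g hg _ (D.mul_mem hy (D.inv_mem hx))) hz, ?_⟩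
    rw [mul_smul, e]
    simp [mul_smul]

theorem conj_zpowers {c s x : G} (h : s * c * s⁻¹ ∈ Subgroup.zpowers c)
    (hx : x ∈ Subgroup.zpowers c) : s * x * s⁻¹ ∈ Subgroup.zpowers c := by
  obtain ⟨n, rfl⟩ := hx
  simp only
  rw [← conj_zpow]
  exact Subgroup.zpow_mem _ h n

theorem R_normal (hΩ : Nat.card Ω = p ^ 2 + 1) (hp2 : p ≠ 2) (hG : T2 G Ω)
    (hR : St p a R) {b : Ω} (hba : b ≠ a) {c : G} (hcR : c ∈ R) (hco : orderOf c = p)
    (hcn : ∀ s : G, s • a = a → s * c * s⁻¹ ∈ Subgroup.zpowers c) :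
    ∀ s : G, s • a = a → ∀ r ∈ R, s * r * s⁻¹ ∈ R := by
  have hc1 : c ≠ 1 := fun e => by rw [e, orderOf_one] at hco; exact hp.out.one_lt.ne hco
  set C := Subgroup.centralizer ({c} : Set G) with hC
  have hmC : ∀ g, g ∈ C ↔ g * c = c * g := fun g => by
    rw [hC, Subgroup.mem_centralizer_singleton_iff]
  have hRC : R ≤ C := fun r hr => (hmC r).2 (hR.cm r hr c hcR)
  have hCS : ∀ g ∈ C, g • a = a := by
    intro g hg
    by_contra hne
    apply hc1
    refine hR.reg hne hcR ?_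
    rw [← mul_smul, ← (hmC g).1 hg, mul_smul, hR.fx c hcR]
  have hCn : ∀ s : G, s • a = a → ∀ g ∈ C, s * g * s⁻¹ ∈ C := by
    intro s hs g hg
    obtain ⟨n, hn⟩ := hcn s⁻¹ (inv_fix hs)
    simp only [inv_inv] at hn
    have h1 : Commute g (c ^ n) := Commute.zpow_right ((hmC g).1 hg) n
    rw [hn] at h1
    rw [hmC]
    have h2 := h1.eq
    calc s * g * s⁻¹ * c = s * (g * (s⁻¹ * c * s)) * s⁻¹ := by group
      _ = c * (s * g * s⁻¹) := by rw [h2]; group
  have hDn : ∀ s : G, s • a = a → ∀ k ∈ ⁅C, C⁆, s * k * s⁻¹ ∈ ⁅C, C⁆ := by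
    intro s hs
    have : ⁅C, C⁆ ≤ (⁅C, C⁆).comap (MulAut.conj s).toMonoidHom := by
      rw [Subgroup.commutator_le]
      intro g1 h1 g2 h2
      rw [Subgroup.mem_comap, map_commutatorElement]
      exact Subgroup.commutator_mem_commutator (hCn s hs g1 h1) (hCn s hs g2 h2)
    exact fun k hk => this hk
  have hDC : ⁅C, C⁆ ≤ C := Subgroup.commutator_le_self C
  by_cases hD : ⁅C, C⁆ = ⊥
  · intro s hs r hr
    have hC' := hCn s hs r (hRC hr)
    have hne : (s * r * s⁻¹) • b ≠ a := fun e =>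
      hba (MulAction.injective _ (e.trans (hCS _ hC').symm))
    obtain ⟨r', hr', e⟩ := hR.tr b _ hba hne
    have hcomm : Commute r'⁻¹ (s * r * s⁻¹) := by
      have := Subgroup.commutator_mem_commutator (hRC (R.inv_mem hr')) hC'
      rw [hD, Subgroup.mem_bot, commutatorElement_eq_one_iff_commute] at this
      exact this
    have h1 : r'⁻¹ * (s * r * s⁻¹) = 1 := by
      refine hR.triv hba (k := 2) (hCS _ (C.mul_mem (hRC (R.inv_mem hr')) hC'))
        (by rw [mul_smul, ← e, inv_smul_smul]) ?_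
      rw [hcomm.mul_pow, conj_pow, hR.pow_eq hr, hR.pow_eq (R.inv_mem hr')]; simp
    rw [← inv_mul_eq_one.1 h1]; exact hr'
  have hO : BC G a (orbit ↥⁅C, C⁆ b) := BC_orbit (fun k hk => hCS k (hDC hk)) hDn hba
  have hbO : b ∈ orbit ↥⁅C, C⁆ b := mem_orbit_self b
  have hcO : c • b ∉ orbit ↥⁅C, C⁆ b := by
    intro h
    obtain ⟨y, hy, e⟩ := mem_orbit.1 h
    have hcC := hRC hcR
    have hyC := hDC hy
    rw [← Subgroup.map_subtype_commutator] at hy
    obtain ⟨y', hy', rfl⟩ := hy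
    have hcop : Nat.Coprime (p ^ 2) (Nat.card ↥(stabilizer G a ⊓ stabilizer G b)) :=
      Nat.Coprime.pow_left _ ((Nat.Prime.coprime_iff_not_dvd hp.out).2 (hR.pp b hba))
    have := central_eq_one (X := C) (R.subgroupOf C) (N := p ^ 2)
      (fun x hx y hy => Subtype.ext (hR.cm x hx y hy)) (fun x hx => Subtype.ext (hR.pow_eq hx)) ?_
      (c := ⟨c, hcC⟩) (y := y') (h := y'⁻¹ * ⟨c, hcC⟩) hcR (fun g => Subtype.ext ((hmC g).1 g.2))
      hy' ?_ (by simp)
    · exact hc1 (congrArg Subtype.val this)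
    · have hCS' : C ≤ stabilizer G a := fun g hg => hCS g hg
      have e1 := Subgroup.relIndex_mul_relIndex R C (stabilizer G a) hRC hCS'
      have e2 := relIndex_mul_card (hRC.trans hCS')
      rw [hR.cd, ← card_stab hΩ hG hba, mul_comm] at e2
      have e3 := Nat.eq_of_mul_eq_mul_left (pow_pos hp.out.pos 2) e2
      refine Nat.Coprime.coprime_dvd_right ?_ hcop
      rw [← e3, ← e1]
      exact Dvd.intro _ rfl
    · refine Nat.Coprime.coprime_dvd_right ?_ hcop
      rw [← Subgroup.orderOf_coe]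
      apply Subgroup.orderOf_dvd_natCard
      refine ⟨hCS _ (y'⁻¹ * ⟨c, hcC⟩).2, ?_⟩
      show ((y' : G)⁻¹ * c) • b = b
      rw [mul_smul, ← e]
      exact inv_smul_smul _ _
  have hOc : (orbit ↥⁅C, C⁆ b).ncard = p := by
    rcases hO.card hΩ hR.toRT hbO with h | h | h
    · exfalso
      apply hD
      rw [Set.ncard_eq_one] at h
      obtain ⟨x, hx⟩ := h
      have hfix : ∀ k ∈ ⁅C, C⁆, k • b = b := by
        intro k hk
        have h1 : k • b ∈ orbit ↥⁅C, C⁆ b := mem_orbit.2 ⟨k, hk, rfl⟩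
        have h2 := hbO
        rw [hx] at h1 h2
        exact h1.trans h2.symm
      rw [eq_bot_iff]
      intro k hk
      refine eq_one_of_fix (hCS k (hDC hk)) (fun w hw => ?_)
      obtain ⟨r, hr, rfl⟩ := hR.tr b w hba hw
      have := hfix _ (hDn r⁻¹ (hR.fx _ (R.inv_mem hr)) k hk)
      rw [inv_inv, mul_smul, mul_smul, inv_smul_eq_iff] at this
      exact this
    · exact h
    · exact absurd (by rw [h]; exact hR.ne hcR hba) hcO
  obtain ⟨c2, hc2R, hc2o, hc2b, -, hc2n⟩ := exists_normal_cyc hΩ hp2 hG hR hO hOc hbO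
  intro s hs r hr
  obtain ⟨q, hq, d, hd, rfl⟩ := hR.decomp (P := Subgroup.zpowers c2) (Q := Subgroup.zpowers c)
    (by rw [Nat.card_zpowers, hc2o]) (Subgroup.zpowers_le.2 hc2R) (Subgroup.zpowers_le.2 hcR)
    (Subgroup.mem_zpowers c) (fun h => hcO (hc2b c h)) hr
  have : s * (q * d) * s⁻¹ = (s * q * s⁻¹) * (s * d * s⁻¹) := by group
  rw [this]
  exact R.mul_mem (Subgroup.zpowers_le.2 hcR (conj_zpowers (hcn s hs) hq))
    (Subgroup.zpowers_le.2 hc2R (conj_zpowers (hc2n s hs) hd))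

theorem stab_comm (hR : St p a R) {b : Ω} (hba : b ≠ a) {c : G} (hcR : c ∈ R) (hco : orderOf c = p)
    (hcn : ∀ s : G, s • a = a → s * c * s⁻¹ ∈ Subgroup.zpowers c)
    (hRn : ∀ s : G, s • a = a → ∀ r ∈ R, s * r * s⁻¹ ∈ R) {h k : G} (hha : h • a = a)
    (hhb : h • b = b) (hka : k • a = a) (hkb : k • b = b) : h * k = k * h := by
  have hZ : Nat.card (Subgroup.zpowers c) = p := by rw [Nat.card_zpowers, hco]
  have hZR : Subgroup.zpowers c ≤ R := Subgroup.zpowers_le.2 hcR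
  obtain ⟨x, hxR, hx⟩ : ∃ x ∈ R, x ∉ Subgroup.zpowers c := by
    by_contra hcon
    push Not at hcon
    have := Subgroup.card_le_of_le (show R ≤ Subgroup.zpowers c from hcon)
    rw [hZ, hR.cd] at this
    have := hp.out.two_le
    nlinarith
  have hdec : ∀ r ∈ R, ∃ i : ℤ, ∃ d ∈ Subgroup.zpowers c, r = x ^ i * d := by
    intro r hr
    obtain ⟨q, ⟨i, rfl⟩, d, hd, e⟩ := hR.decomp hZ hZR (Subgroup.zpowers_le.2 hxR)
      (Subgroup.mem_zpowers x) hx hr
    exact ⟨i, d, hd, e⟩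
  have hcx : ∀ d ∈ Subgroup.zpowers c, Commute x d := fun d hd => hR.cm x hxR d (hZR hd)
  set κ := (k * h)⁻¹ * (h * k) with hκ
  have hκa : κ • a = a := by
    rw [hκ, mul_smul, mul_smul h, hka, hha, inv_smul_eq_iff, mul_smul, hha, hka]
  have hκb : κ • b = b := by
    rw [hκ, mul_smul, mul_smul h, hkb, hhb, inv_smul_eq_iff, mul_smul, hhb, hkb]
  have hκc : κ * c * κ⁻¹ = c := by
    obtain ⟨m, hm⟩ := hcn h hha
    obtain ⟨n, hn⟩ := hcn k hka
    simp only at hm hn
    have e1 : h * k * c * (h * k)⁻¹ = c ^ (m * n) := by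
      calc h * k * c * (h * k)⁻¹ = h * (k * c * k⁻¹) * h⁻¹ := by group
        _ = c ^ (m * n) := by rw [← hn, ← conj_zpow, ← hm, ← zpow_mul]
    have e2 : k * h * c * (k * h)⁻¹ = c ^ (m * n) := by
      calc k * h * c * (k * h)⁻¹ = k * (h * c * h⁻¹) * k⁻¹ := by group
        _ = c ^ (m * n) := by rw [← hm, ← conj_zpow, ← hn, ← zpow_mul, mul_comm]
    calc κ * c * κ⁻¹ = (k * h)⁻¹ * (h * k * c * (h * k)⁻¹) * (k * h) := by rw [hκ]; group
      _ = c := by rw [e1, ← e2]; group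
  have hκx : ∃ d ∈ Subgroup.zpowers c, κ * x * κ⁻¹ = x * d := by
    obtain ⟨m, d1, hd1, hm⟩ := hdec _ (hRn h hha x hxR)
    obtain ⟨n, d2, hd2, hn⟩ := hdec _ (hRn k hka x hxR)
    have e1 : h * k * x * (h * k)⁻¹ = x ^ (m * n) * (d1 ^ n * (h * d2 * h⁻¹)) := by
      calc h * k * x * (h * k)⁻¹ = h * (k * x * k⁻¹) * h⁻¹ := by group
        _ = (h * x * h⁻¹) ^ n * (h * d2 * h⁻¹) := by rw [hn, conj_zpow]; group
        _ = _ := by rw [hm, ((hcx d1 hd1).zpow_left m).mul_zpow, ← zpow_mul, mul_assoc]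
    have e2 : k * h * x * (k * h)⁻¹ = x ^ (m * n) * (d2 ^ m * (k * d1 * k⁻¹)) := by
      calc k * h * x * (k * h)⁻¹ = k * (h * x * h⁻¹) * k⁻¹ := by group
        _ = (k * x * k⁻¹) ^ m * (k * d1 * k⁻¹) := by rw [hm, conj_zpow]; group
        _ = _ := by rw [hn, ((hcx d2 hd2).zpow_left n).mul_zpow, ← zpow_mul, mul_assoc, mul_comm n]
    set d3 := (d2 ^ m * (k * d1 * k⁻¹))⁻¹ * (d1 ^ n * (h * d2 * h⁻¹)) with hd3
    have hd3m : d3 ∈ Subgroup.zpowers c := Subgroup.mul_mem _ (Subgroup.inv_mem _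
      (Subgroup.mul_mem _ (Subgroup.zpow_mem _ hd2 m) (conj_zpowers (hcn k hka) hd1)))
      (Subgroup.mul_mem _ (Subgroup.zpow_mem _ hd1 n) (conj_zpowers (hcn h hha) hd2))
    have hkh : ((k * h)⁻¹) • a = a := inv_fix (by rw [mul_smul, hha, hka])
    refine ⟨_, conj_zpowers (hcn _ hkh) hd3m, ?_⟩
    have e3 : h * k * x * (h * k)⁻¹ = k * h * x * (k * h)⁻¹ * d3 := by rw [e1, e2, hd3]; group
    calc κ * x * κ⁻¹ = (k * h)⁻¹ * (h * k * x * (h * k)⁻¹) * (k * h) := by rw [hκ]; group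
      _ = _ := by rw [e3]; group
  have hκd : ∀ d ∈ Subgroup.zpowers c, Commute κ d := by
    rintro _ ⟨n, rfl⟩
    exact Commute.zpow_right (mul_inv_eq_iff_eq_mul.1 hκc) n
  obtain ⟨d, hd, hκx⟩ := hκx
  have hpow : ∀ n : ℕ, κ ^ n * x = x * d ^ n * κ ^ n := by
    intro n
    induction n with
    | zero => simp
    | succ n ih =>
      have e := mul_inv_eq_iff_eq_mul.1 hκx
      have e' := ((hκd d hd).pow_right n).eq
      calc κ ^ (n + 1) * x = κ * (κ ^ n * x) := by rw [pow_succ', mul_assoc]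
        _ = (κ * x) * d ^ n * κ ^ n := by rw [ih]; simp only [mul_assoc]
        _ = x * d * (κ * d ^ n) * κ ^ n := by rw [e]; simp only [mul_assoc]
        _ = _ := by rw [e', pow_succ', pow_succ']; simp only [mul_assoc]
  have hdp : d ^ p = 1 := by
    rw [← hZ]
    exact congrArg Subtype.val (pow_card_eq_one' (x := (⟨d, hd⟩ : Subgroup.zpowers c)))
  have hκp : κ ^ p = 1 := by
    have hpa : κ ^ p • a = a := (stabilizer G a).pow_mem (show κ ∈ _ from hκa) p
    have hpb : κ ^ p • b = b := (stabilizer G b).pow_mem (show κ ∈ _ from hκb) p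
    refine eq_one_of_fix hpa (fun w hw => ?_)
    obtain ⟨r, hr, rfl⟩ := hR.tr b w hba hw
    obtain ⟨i, d', hd', rfl⟩ := hdec r hr
    have h1 : Commute (κ ^ p) x := by
      have := hpow p
      rwa [hdp, mul_one] at this
    have h2 : Commute (κ ^ p) (x ^ i * d') := (h1.zpow_right i).mul_right ((hκd d' hd').pow_left p)
    rw [← mul_smul, h2.eq, mul_smul, hpb]
  have := hR.triv hba hκa hκb (k := 1) (by rw [pow_one, hκp])
  rw [hκ, inv_mul_eq_one] at this
  exact this.symm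

theorem zass (hΩ : Nat.card Ω = p ^ 2 + 1) (hG : T2 G Ω) (hR : St p a R) {b : Ω} (hba : b ≠ a)
    (hRn : ∀ s : G, s • a = a → ∀ r ∈ R, s * r * s⁻¹ ∈ R)
    (hab : ∀ h k : G, h • a = a → h • b = b → k • a = a → k • b = b → h * k = k * h)
    {h : G} (hha : h • a = a) (hhb : h • b = b) {w : Ω} (hwa : w ≠ a) (hwb : w ≠ b)
    (hw : h • w = w) : h = 1 := by
  have key : ∀ h : G, h • a = a → h • b = b → ∀ w, w ≠ a → w ≠ b → h • w = w → h ≠ 1 →
      BC G a {v | v ≠ a ∧ h • v = v} ∧ {v | v ≠ a ∧ h • v = v}.ncard = p := by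
    intro h hha hhb w hwa hwb hw h1
    have hF : {v | v ≠ a ∧ h • v = v} = orbit ↥(R ⊓ Subgroup.centralizer ({h} : Set G)) b := by
      ext v
      rw [mem_orbit]
      constructor
      · rintro ⟨hv, hv'⟩
        obtain ⟨r, hr, rfl⟩ := hR.tr b v hba hv
        refine ⟨r, ⟨hr, ?_⟩, rfl⟩
        have := hR.reg' hba (hRn h hha r hr) hr (by rw [mul_smul, mul_smul, inv_fix hhb, hv'])
        exact Subgroup.mem_centralizer_singleton_iff.2 (mul_inv_eq_iff_eq_mul.1 this).symm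
      · rintro ⟨r, hr, rfl⟩
        refine ⟨hR.ne hr.1 hba, ?_⟩
        rw [← mul_smul, ← Subgroup.mem_centralizer_singleton_iff.1 hr.2, mul_smul, hhb]
    have hBC : BC G a {v | v ≠ a ∧ h • v = v} := by
      rw [hF]
      refine BC_orbit (D := R ⊓ Subgroup.centralizer ({h} : Set G)) (fun k hk => hR.fx k hk.1) (fun s hs k hk => ⟨hRn s hs k hk.1, ?_⟩) hba
      obtain ⟨r, hr, e⟩ := hR.tr b (s • b) hba
        (fun e => hba (MulAction.injective s (e.trans hs.symm)))
      have h3 : (r⁻¹ * s) • a = a := by rw [mul_smul, hs, inv_fix (hR.fx r hr)]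
      have h4 : (r⁻¹ * s) • b = b := by rw [mul_smul, ← e, inv_smul_smul]
      have h5 := hR.cm _ (hRn _ h3 k hk.1) r hr
      have h6 : s * k * s⁻¹ = (r⁻¹ * s) * k * (r⁻¹ * s)⁻¹ := by
        calc s * k * s⁻¹ = r * ((r⁻¹ * s) * k * (r⁻¹ * s)⁻¹) * r⁻¹ := by group
          _ = _ := by rw [← h5, mul_inv_cancel_right]
      rw [h6]
      have h7 : Commute (r⁻¹ * s) h := hab _ _ h3 h4 hha hhb
      have h8 : Commute k h := Subgroup.mem_centralizer_singleton_iff.1 hk.2
      exact Subgroup.mem_centralizer_singleton_iff.2 ((h7.mul_left h8).mul_left h7.inv_left)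
    refine ⟨hBC, ?_⟩
    rcases hBC.card hΩ hR.toRT (b := b) ⟨hba, hhb⟩ with e | e | e
    · rw [Set.ncard_eq_one] at e
      obtain ⟨x, hx⟩ := e
      have h3 : w ∈ {v | v ≠ a ∧ h • v = v} := ⟨hwa, hw⟩
      have h4 : b ∈ {v | v ≠ a ∧ h • v = v} := ⟨hba, hhb⟩
      rw [hx] at h3 h4
      exact absurd (h3.trans h4.symm) hwb
    · exact e
    · refine absurd (eq_one_of_fix hha (fun v hv => ?_)) h1
      have : v ∈ {v | v ≠ a ∧ h • v = v} := by rw [e]; exact hv
      exact this.2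
  by_contra h1
  obtain ⟨t, hta, htb⟩ := hG a b b a hba.symm hba
  have hta' : t⁻¹ • b = a := by rw [inv_smul_eq_iff, hta]
  have htb' : t⁻¹ • a = b := by rw [inv_smul_eq_iff, htb]
  obtain ⟨hF, hFc⟩ := key h hha hhb w hwa hwb hw h1
  have ha' : (t * h * t⁻¹) • a = a := by rw [mul_smul, mul_smul, htb', hhb, htb]
  obtain ⟨hF', hFc'⟩ := key (t * h * t⁻¹) ha'
    (by rw [mul_smul, mul_smul, hta', hha, hta]) (t • w)
    (fun e => hwb (MulAction.injective t (e.trans htb.symm)))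
    (fun e => hwa (MulAction.injective t (e.trans hta.symm)))
    (by rw [mul_smul, mul_smul, inv_smul_smul, hw]) (fun e => h1 (by rwa [conj_eq_one_iff] at e))
  have hF2 := hF.im t
  rw [hta] at hF2
  refine design hp.out.two_le hΩ hG hF' hF2 hFc' ((ncard_im _ _).trans hFc) hba.symm ?_
  ext v
  have e1 : v ∈ insert a {v | v ≠ a ∧ (t * h * t⁻¹) • v = v} ↔ (t * h * t⁻¹) • v = v := by
    constructor
    · rintro (rfl | hv)
      · exact ha'
      · exact hv.2
    · intro hv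
      by_cases e : v = a
      · exact Or.inl e
      · exact Or.inr ⟨e, hv⟩
  rw [e1, mul_smul, mul_smul, ← eq_inv_smul_iff]
  constructor
  · intro hv
    by_cases e : v = b
    · exact Or.inl e
    · exact Or.inr ⟨fun e' => e (by rw [← hta, ← e', smul_inv_smul]), hv⟩
  · rintro (rfl | hv)
    · rw [hta', hha]
    · exact hv.2

theorem even_case (hΩ : Nat.card Ω = p ^ 2 + 1) (hG : T2 G Ω) (hR : St p a R) {b : Ω}
    (hba : b ≠ a) (hRn : ∀ s : G, s • a = a → ∀ r ∈ R, s * r * s⁻¹ ∈ R)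
    (hz : ∀ h : G, h • a = a → h • b = b → ∀ w, w ≠ a → w ≠ b → h • w = w → h = 1)
    (hH : Nat.card ↥(stabilizer G a ⊓ stabilizer G b) + 1 ≤ p) {z : G} (hza : z • a = a)
    (hzb : z • b = b) (hz1 : z ≠ 1) (hz2 : z * z = 1) : False := by
  classical
  have hinv : ∀ r ∈ R, r * (z * r * z⁻¹) = 1 := by
    intro r hr
    have hr' := hRn z hza r hr
    have hρ := R.mul_mem hr hr'
    by_contra hne
    have hzi : z⁻¹ = z := inv_eq_of_mul_eq_one_right hz2
    refine hz1 (hz z hza hzb ((r * (z * r * z⁻¹)) • b) (hR.ne hρ hba)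
      (fun e => hne (hR.reg hba hρ e)) ?_)
    have e : z * (r * (z * r * z⁻¹)) = r * (z * r * z⁻¹) * z := by
      conv_rhs => rw [hR.cm r hr _ hr']
      calc z * (r * (z * r * z⁻¹)) = z * r * z * r * z⁻¹ := by group
        _ = _ := by rw [hzi]
    rw [← mul_smul, e, mul_smul, hzb]
  have three : ∀ s : G, ∀ y1 y2 y3 : Ω, y1 ≠ y2 → y1 ≠ y3 → y2 ≠ y3 → s • y1 = y1 → s • y2 = y2 →
      s • y3 = y3 → s = 1 := by
    intro s y1 y2 y3 h12 h13 h23 e1 e2 e3
    obtain ⟨g, hg1, hg2⟩ := hG a b y1 y2 hba.symm h12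
    have := hz (g⁻¹ * s * g) (by rw [mul_smul, mul_smul, hg1, e1, ← hg1, inv_smul_smul])
      (by rw [mul_smul, mul_smul, hg2, e2, ← hg2, inv_smul_smul]) (g⁻¹ • y3)
      (fun e => h13 (by rw [← hg1, ← e, smul_inv_smul]))
      (fun e => h23 (by rw [← hg2, ← e, smul_inv_smul]))
      (by rw [mul_smul, mul_smul, smul_inv_smul, e3])
    calc s = g * (g⁻¹ * s * g) * g⁻¹ := by group
      _ = 1 := by rw [this]; simp
  have hex : ∀ y : Ω, ∃ s : G, y ≠ a → y ≠ b → s • y = y ∧ s • a = b ∧ s • b = a := by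
    intro y
    by_cases hy : y ≠ a ∧ y ≠ b
    · obtain ⟨g, hg1, hg2⟩ := hG a b y a hba.symm hy.1
      obtain ⟨r, hr, e⟩ := hR.tr b (g⁻¹ • b) hba
        (fun e => hy.2 (by rw [← hg1, ← e, smul_inv_smul]))
      refine ⟨g * (r * z) * g⁻¹, fun _ _ => ⟨?_, ?_, ?_⟩⟩
      · rw [← hg1, mul_smul, mul_smul, inv_smul_smul, mul_smul, hza, hR.fx r hr]
      · conv_lhs => rw [← hg2]
        rw [mul_smul, mul_smul, inv_smul_smul, mul_smul, hzb, e, smul_inv_smul]
      · rw [mul_smul, mul_smul, ← e, ← mul_smul (r * z)]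
        have : r * z * r = z := by
          calc r * z * r = r * (z * r * z⁻¹) * z := by group
            _ = z := by rw [hinv r hr, one_mul]
        rw [this, hzb, hg2]
    · exact ⟨1, fun h1 h2 => absurd ⟨h1, h2⟩ hy⟩
  choose σ hσ using hex
  have := Fintype.ofFinite Ω
  have := Fintype.ofFinite G
  let s : Finset Ω := (Finset.univ.erase a).erase b
  let T : Finset G := Finset.univ.filter (fun g => g • a = b ∧ g • b = a)
  have hs : ∀ y, y ∈ s ↔ y ≠ a ∧ y ≠ b := by intro y; simp [s, and_comm]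
  have h1 := Finset.card_le_mul_card_image_of_maps_to (f := σ) (s := s) (t := T)
    (fun y hy => by simpa [T] using (hσ y ((hs y).1 hy).1 ((hs y).1 hy).2).2) 2 (by
      intro g hg
      by_contra hlt
      obtain ⟨y1, y2, y3, m1, m2, m3, h12, h13, h23⟩ := Finset.two_lt_card_iff.1 (not_le.1 hlt)
      simp only [Finset.mem_filter, hs] at m1 m2 m3
      have := three g y1 y2 y3 h12 h13 h23 (m1.2 ▸ (hσ y1 m1.1.1 m1.1.2).1)
        (m2.2 ▸ (hσ y2 m2.1.1 m2.1.2).1) (m3.2 ▸ (hσ y3 m3.1.1 m3.1.2).1)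
      simp only [T, Finset.mem_filter] at hg
      rw [this, one_smul] at hg
      exact hba hg.2.1.symm)
  have h2 : s.card + 2 = p ^ 2 + 1 := by
    have e1 := Finset.card_erase_add_one (s := Finset.univ.erase a) (a := b) (by simpa using hba)
    have e2 := Finset.card_erase_add_one (s := Finset.univ) (a := a) (Finset.mem_univ _)
    rw [Finset.card_univ, ← Nat.card_eq_fintype_card, hΩ] at e2
    simp only [s]
    omega
  have h3 : T.card ≤ Nat.card ↥(stabilizer G a ⊓ stabilizer G b) := by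
    obtain ⟨t, hta, htb⟩ := hG a b b a hba.symm hba
    rw [← Nat.card_eq_finsetCard]
    let f : T → ↥(stabilizer G a ⊓ stabilizer G b) := fun g => ⟨t * g, by
      have hg := g.2
      simp only [T, Finset.mem_filter] at hg
      exact ⟨mem_stabilizer_iff.2 (by rw [mul_smul, hg.2.1, htb]),
        mem_stabilizer_iff.2 (by rw [mul_smul, hg.2.2, hta])⟩⟩
    refine Nat.card_le_card_of_injective f (fun g g' e => Subtype.ext ?_)
    exact mul_left_cancel (congrArg Subtype.val e)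
  have := hp.out.two_le
  nlinarith

theorem odd_case (hΩ : Nat.card Ω = p ^ 2 + 1) (hp2 : p ≠ 2) (hG : T2 G Ω) {b : Ω} (hba : b ≠ a)
    (hH : Odd (Nat.card ↥(stabilizer G a ⊓ stabilizer G b))) : False := by
  classical
  have := Fintype.ofFinite Ω
  have hpo : Odd p := hp.out.odd_of_ne_two hp2
  have hS : Odd (Nat.card (stabilizer G a)) := by
    rw [← card_stab hΩ hG hba]; exact hpo.pow.mul hH
  have hodd : ∀ g : G, ∀ w : Ω, g • w = w → Odd (orderOf g) := by
    intro g w hw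
    obtain ⟨k, hk⟩ : ∃ k : G, k • a = w := by
      by_cases e : w = b
      · obtain ⟨k, hk, -⟩ := hG a b b a hba.symm hba
        exact ⟨k, e ▸ hk⟩
      · obtain ⟨k, hk, -⟩ := hG a b w b hba.symm e
        exact ⟨k, hk⟩
    have h1 : k⁻¹ * g * k ∈ stabilizer G a := by
      rw [mem_stabilizer_iff, mul_smul, mul_smul, hk, hw, ← hk, inv_smul_smul]
    have h2 := Subgroup.orderOf_dvd_natCard _ h1
    have h3 : orderOf (k⁻¹ * g * k) = orderOf g := by
      simpa using MulEquiv.orderOf_eq (MulAut.conj k⁻¹) g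
    rw [h3] at h2
    exact hS.of_dvd_nat h2
  let ε : G →* ℤˣ := Equiv.Perm.sign.comp (MulAction.toPermHom G Ω)
  have hε : ∀ g : G, ∀ w : Ω, g • w = w → ε g = 1 := by
    intro g w hw
    obtain ⟨m, hm⟩ := hodd g w hw
    have : ε g ^ orderOf g = 1 := by rw [← map_pow, pow_orderOf_eq_one, map_one]
    rwa [hm, pow_succ, pow_mul, Int.units_sq, one_pow, one_mul] at this
  have hGe : 2 ∣ Nat.card G := by
    have e := Subgroup.card_mul_index (stabilizer G a)
    rw [MulAction.index_stabilizer] at e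
    have : orbit G a = Set.univ := by
      apply Set.eq_univ_of_forall
      intro w
      by_cases e : w = b
      · obtain ⟨k, hk, -⟩ := hG a b b a hba.symm hba
        exact ⟨k, e ▸ hk⟩
      · obtain ⟨k, hk, -⟩ := hG a b w b hba.symm e
        exact ⟨k, hk⟩
    rw [this, Set.ncard_univ, hΩ] at e
    rw [← e]
    exact Dvd.dvd.mul_left (even_iff_two_dvd.1 hpo.pow.add_one) _
  obtain ⟨s, hs⟩ := exists_prime_orderOf_dvd_card' 2 hGe
  have hfree : ∀ w : Ω, s • w ≠ w := fun w hw => by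
    have := hodd s w hw
    rw [hs] at this
    exact absurd this (by decide)
  have hεs : ε s = -1 := by
    have h1 : (MulAction.toPermHom G Ω s) ^ 2 = 1 := by
      rw [← map_pow, ← hs, pow_orderOf_eq_one, map_one]
    have h2 := Equiv.Perm.sign_of_pow_two_eq_one h1
    have h3 : Fintype.card (Function.fixedPoints (MulAction.toPermHom G Ω s)) = 0 := by
      rw [Fintype.card_eq_zero_iff]
      exact ⟨fun x => hfree x.1 x.2⟩
    rw [h3, ← Nat.card_eq_fintype_card, hΩ] at h2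
    obtain ⟨m, hm⟩ := hpo
    have h4 : (p ^ 2 + 1 - 0) / 2 = 2 * (m * m + m) + 1 := by
      have : p ^ 2 + 1 - 0 = 2 * (2 * (m * m + m) + 1) := by rw [hm]; simp; ring
      omega
    rw [h4, pow_succ, pow_mul] at h2
    exact h2.trans (by simp)
  obtain ⟨w, hw1, hw2⟩ : ∃ w, w ≠ a ∧ w ≠ b := by
    by_contra hcon
    push Not at hcon
    have hsub : ({a}ᶜ : Set Ω) ⊆ {b} := fun w hw => hcon w hw
    have := Set.ncard_le_ncard hsub
    rw [ncard_compl hΩ, Set.ncard_singleton] at this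
    have := hp.out.two_le
    nlinarith
  obtain ⟨g, hgb, hga⟩ := hG b a b w hba hw2.symm
  obtain ⟨σ, hσa, hσw⟩ := hG a w a (s • a) hw1.symm (hfree a).symm
  have h5 := hε (s⁻¹ * σ * g) a (by rw [mul_smul, mul_smul, hga, hσw, inv_smul_smul])
  rw [map_mul, map_mul, hε g b hgb, hε σ a hσa, map_inv, hεs] at h5
  simp at h5

theorem odd_prime (hΩ : Nat.card Ω = p ^ 2 + 1) (hp2 : p ≠ 2) (hG : T2 G Ω) {B : Set Ω}
    (hB : BC G a B) (hBc : B.ncard = p) : False := by
  obtain ⟨b, hb⟩ : B.Nonempty := Set.nonempty_of_ncard_ne_zero (by rw [hBc]; exact hp.out.ne_zero)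
  have hba := hB.ne hb
  obtain ⟨R, hR⟩ := exists_St hΩ hG hB hBc hb
  obtain ⟨c, hcR, hco, hcb, -, hcn⟩ := exists_normal_cyc hΩ hp2 hG hR hB hBc hb
  have hc1 : c ≠ 1 := fun e => by rw [e, orderOf_one] at hco; exact hp.out.one_lt.ne hco
  have hRn := R_normal hΩ hp2 hG hR hba hcR hco hcn
  have hz : ∀ h : G, h • a = a → h • b = b → ∀ w, w ≠ a → w ≠ b → h • w = w → h = 1 :=
    fun h hha hhb w hwa hwb hw => zass hΩ hG hR hba hRn
      (fun h k h1 h2 h3 h4 => stab_comm hR hba hcR hco hcn hRn h1 h2 h3 h4) hha hhb hwa hwb hw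
  rcases Nat.even_or_odd (Nat.card ↥(stabilizer G a ⊓ stabilizer G b)) with h | h
  · obtain ⟨z, hzo⟩ := exists_prime_orderOf_dvd_card' 2 (even_iff_two_dvd.1 h)
    refine even_case hΩ hG hR hba hRn hz ?_ (z := z) z.2.1 z.2.2 (fun e => ?_) ?_
    · have hcB := hcb c (Subgroup.mem_zpowers c)
      have hcb' : c • b ≠ b := fun e => hc1 (hR.reg hba hcR e)
      let f : ↥(stabilizer G a ⊓ stabilizer G b) → ↥(B \ {b}) := fun h => ⟨(h : G) • c • b,
        hB.bl h h.2.1 b hb (by rw [show (h : G) • b = b from h.2.2]; exact hb) _ hcB,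
        fun e => hcb' (MulAction.injective (h : G) (e.trans (show (h : G) • b = b from h.2.2).symm))⟩
      have := Nat.card_le_card_of_injective f (fun h k e => by
        have e' : (h : G) • c • b = (k : G) • c • b := congrArg Subtype.val e
        have h1 := hz ((k⁻¹ * h : ↥(stabilizer G a ⊓ stabilizer G b)) : G) (k⁻¹ * h).2.1
          (k⁻¹ * h).2.2 (c • b) (hB.ne hcB) hcb'
          (by rw [Subgroup.coe_mul, mul_smul, e', Subgroup.coe_inv, inv_smul_smul])
        exact (inv_mul_eq_one.1 (Subtype.ext h1 : k⁻¹ * h = 1)).symm)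
      rw [Nat.card_coe_set_eq] at this
      have h1 := Set.ncard_sdiff_singleton_add_one hb
      omega
    · rw [show z = 1 from Subtype.ext e, orderOf_one] at hzo
      exact absurd hzo (by decide)
    · have := pow_orderOf_eq_one z
      rw [hzo, sq] at this
      exact congrArg Subtype.val this
  · exact odd_case hΩ hp2 hG hba h

theorem two_case (hΩ : Nat.card Ω = p ^ 2 + 1) (hp2 : p = 2) (hG : T2 G Ω) {B : Set Ω}
    (hB : BC G a B) (hBc : B.ncard = p) : Nat.card G = 20 := by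
  subst hp2
  obtain ⟨b, b', hbb, rfl⟩ := Set.ncard_eq_two.1 hBc
  have hb : b ∈ ({b, b'} : Set Ω) := Or.inl rfl
  have hb' : b' ∈ ({b, b'} : Set Ω) := Or.inr rfl
  have hba := hB.ne hb
  obtain ⟨R, hR⟩ := exists_St hΩ hG hB hBc hb
  have hH : stabilizer G a ⊓ stabilizer G b = ⊥ := by
    rw [eq_bot_iff]
    rintro h ⟨hha, hhb⟩
    replace hha : h • a = a := hha
    replace hhb : h • b = b := hhb
    have hhb' : h • b' = b' := by
      rcases hB.bl h hha b hb (by rw [hhb]; exact hb) b' hb' with e | e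
      · exact absurd (MulAction.injective h (e.trans hhb.symm)) hbb.symm
      · exact e
    refine hR.triv hba hha hhb (k := 1) ?_
    apply FaithfulSMul.eq_of_smul_eq_smul (α := Ω)
    intro w
    rw [one_smul, pow_one, sq, mul_smul]
    by_cases e : h • w = w
    · rw [e, e]
    have hc : ((insert a {b, b'} : Set Ω)ᶜ).ncard = 2 := by
      have h7 := Set.ncard_add_ncard_compl (insert a {b, b'} : Set Ω)
      rw [Set.ncard_insert_of_notMem hB.nm, hBc, hΩ] at h7
      omega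
    have hm : ∀ v, v ∈ (insert a {b, b'} : Set Ω)ᶜ → h • v ∈ (insert a {b, b'} : Set Ω)ᶜ := by
      rintro v hv (e | e | e)
      · exact hv (Or.inl (MulAction.injective h (e.trans hha.symm)))
      · exact hv (Or.inr (Or.inl (MulAction.injective h (e.trans hhb.symm))))
      · exact hv (Or.inr (Or.inr (MulAction.injective h (e.trans hhb'.symm))))
    have hw : w ∈ (insert a {b, b'} : Set Ω)ᶜ := by
      rintro (e' | e' | e')
      · exact e (by rw [e', hha])
      · exact e (by rw [e', hhb])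
      · exact e (by rw [e', hhb'])
    have heq : ({w, h • w} : Set Ω) = (insert a {b, b'} : Set Ω)ᶜ :=
      Set.eq_of_subset_of_ncard_le (by
        rintro v (rfl | rfl)
        · exact hw
        · exact hm _ hw) (by rw [hc, Set.ncard_pair (Ne.symm e)])
    have := hm _ (hm _ hw)
    rw [← heq] at this
    rcases this with e' | e'
    · exact e'
    · exact absurd (MulAction.injective h e') e
  have e1 := card_stab hΩ hG hba
  rw [hH] at e1
  have e := Subgroup.card_mul_index (stabilizer G a)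
  rw [MulAction.index_stabilizer] at e
  have : orbit G a = Set.univ := by
    apply Set.eq_univ_of_forall
    intro w
    by_cases e : w = b
    · obtain ⟨k, hk, -⟩ := hG a b b a hba.symm hba
      exact ⟨k, e ▸ hk⟩
    · obtain ⟨k, hk, -⟩ := hG a b w b hba.symm e
      exact ⟨k, hk⟩
  rw [this, Set.ncard_univ, hΩ, ← e1] at e
  rw [← e]
  simp

end H24.Sq
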